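import Cfsg.Agent.H82.Chev.Comm

/-!
Subgroups splitting over the kernel of a central extension, stable under a lifted diagonal group.
-/

set_option autoImplicit false

namespace Cfsg.Agent.H70.F4Mult

open scoped commutatorElement

variable {Γ G : Type*} [Group Γ] [Group G]

/-- The element fixes no non-trivial element of the subgroup. -/
def Fpf (h : G) (S : Subgroup G) : Prop := ∀ x ∈ S, h * x * h⁻¹ = x → x = 1

/-- A fixed-point-free normalising element gives a surjective commutator map. -/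
theorem Fpf.exists_comm_eq {h : G} {S : Subgroup G} [Finite S] (hf : Fpf h S) (hn : ∀ x ∈ S, h * x * h⁻¹ ∈ S)
    {y : G} (hy : y ∈ S) : ∃ x ∈ S, ⁅h, x⁆ = y := by
  let f : S → S := fun x => ⟨⁅h, (x : G)⁆, by
    rw [commutatorElement_def]; exact mul_mem (hn _ x.2) (inv_mem x.2)⟩
  have hinj : Function.Injective f := fun a b e => by
    have e' : h * (a : G) * h⁻¹ * (a : G)⁻¹ = h * (b : G) * h⁻¹ * (b : G)⁻¹ := congrArg Subtype.val e
    have hz := hf ((b : G)⁻¹ * a) (mul_mem (inv_mem b.2) a.2) (by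
      calc h * ((b : G)⁻¹ * a) * h⁻¹ = (h * b * h⁻¹)⁻¹ * (h * a * h⁻¹ * (a : G)⁻¹) * a := by group
        _ = _ := by rw [e']; group)
    exact (Subtype.ext (inv_mul_eq_one.1 hz)).symm
  obtain ⟨x, hx⟩ := Finite.injective_iff_surjective.1 hinj ⟨y, hy⟩
  exact ⟨x, x.2, congrArg Subtype.val hx⟩

variable {s : Γ →* G} {T0 W : Subgroup G}

variable (s T0) in
/-- A subgroup mapping isomorphically onto `W`, stable under the lifts of `T0`. -/
structure Good (M : Subgroup Γ) (W : Subgroup G) : Prop where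
  map : M.map s = W
  inj : ∀ x ∈ M, s x = 1 → x = 1
  stable : ∀ t, s t ∈ T0 → ∀ x ∈ M, t * x * t⁻¹ ∈ M

theorem good_bot : Good s T0 (⊥ : Subgroup Γ) ⊥ :=
  ⟨Subgroup.map_bot s, fun x hx _ => hx, fun t _ x hx => by
    rw [Subgroup.mem_bot] at hx; simp [hx]⟩

theorem Good.mem {M : Subgroup Γ} (hM : Good s T0 M W) {x : Γ} (hx : x ∈ M) : s x ∈ W :=
  hM.map ▸ Subgroup.mem_map_of_mem s hx

theorem Good.lift {M : Subgroup Γ} (hM : Good s T0 M W) {g : G} (hg : g ∈ W) : ∃ x ∈ M, s x = g := by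
  rw [← hM.map] at hg; exact hg

theorem Good.ext {M : Subgroup Γ} (hM : Good s T0 M W) {x y : Γ} (hx : x ∈ M) (hy : y ∈ M) (e : s x = s y) :
    x = y :=
  mul_inv_eq_one.1 (hM.inj _ (mul_mem hx (inv_mem hy)) (by rw [map_mul, map_inv, e, mul_inv_cancel]))

/-- Every element is a commutator with a fixed-point-free element. -/
theorem Good.exists_comm_eq {M : Subgroup Γ} (hM : Good s T0 M W) [Finite W] {h : Γ} (hh : s h ∈ T0)
    (hf : Fpf (s h) W) {x : Γ} (hx : x ∈ M) : ∃ y ∈ M, ⁅h, y⁆ = x := by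
  obtain ⟨w, hw, e⟩ := hf.exists_comm_eq (fun g hg => by
    obtain ⟨y, hy, rfl⟩ := hM.lift hg
    rw [← map_inv, ← map_mul, ← map_mul]
    exact hM.mem (hM.stable h hh y hy)) (hM.mem hx)
  obtain ⟨y, hy, rfl⟩ := hM.lift hw
  refine ⟨y, hy, hM.ext ?_ hx (by rw [map_commutatorElement, e])⟩
  rw [commutatorElement_def]
  exact mul_mem (hM.stable h hh y hy) (inv_mem hy)

/-- Conjugation by a lift of an element normalising the diagonal group. -/
theorem Good.conj {M : Subgroup Γ} (hM : Good s T0 M W) {n : Γ}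
    (hn : ∀ t ∈ T0, (s n)⁻¹ * t * s n ∈ T0) :
    Good s T0 (M.map (MulAut.conj n).toMonoidHom) (W.map (MulAut.conj (s n)).toMonoidHom) := by
  refine ⟨?_, ?_, ?_⟩
  · rw [← hM.map, Subgroup.map_map, Subgroup.map_map]
    refine congrArg (fun f => Subgroup.map f M) (MonoidHom.ext fun x => ?_)
    simp
  · rintro _ ⟨x, hx, rfl⟩ e
    have : x = 1 := hM.inj x hx (by
      simp only [MulEquiv.coe_toMonoidHom, MulAut.conj_apply, map_mul, map_inv] at e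
      exact conj_eq_one_iff.1 e)
    simp [this]
  · rintro t ht _ ⟨x, hx, rfl⟩
    refine ⟨(n⁻¹ * t * n) * x * (n⁻¹ * t * n)⁻¹, hM.stable _ (by
      rw [map_mul, map_mul, map_inv]; exact hn _ ht) x hx, ?_⟩
    simp only [MulEquiv.coe_toMonoidHom, MulAut.conj_apply]
    group

/-- Two good subgroups, the first normalising the image of the second, with disjoint images. -/
theorem Good.join (hc : s.ker ≤ Subgroup.center Γ) {L M : Subgroup Γ} {X : Subgroup G} (hL : Good s T0 L X)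
    (hM : Good s T0 M W) [Finite W] {h : Γ} (hh : s h ∈ T0) (hcen : ∀ x ∈ X, s h * x = x * s h)
    (hf : Fpf (s h) W) (hnorm : ∀ x ∈ X, ∀ w ∈ W, x * w * x⁻¹ ∈ W)
    (hdis : ∀ x ∈ X, x ∈ W → x = 1) :
    Good s T0 (L ⊔ M) (X ⊔ W) ∧ ∀ z ∈ L ⊔ M, ∃ x ∈ L, ∃ y ∈ M, z = x * y := by
  have key : ∀ x ∈ L, ∀ y ∈ M, x * y * x⁻¹ ∈ M := by
    intro x hx y hy
    obtain ⟨y', hy', rfl⟩ := hM.exists_comm_eq hh hf hy
    have hw : s (x * y' * x⁻¹) ∈ W := by
      rw [map_mul, map_mul, map_inv]; exact hnorm _ (hL.mem hx) _ (hM.mem hy')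
    obtain ⟨y'', hy'', e⟩ := hM.lift hw
    have e1 : x * ⁅h, y'⁆ * x⁻¹ = ⁅x * h * x⁻¹, x * y' * x⁻¹⁆ := by
      simp only [commutatorElement_def]; group
    rw [e1, Cfsg.Agent.H82.Chev.commutator_congr hc (a' := h) (b' := y'') (by
      rw [map_mul, map_mul, map_inv, ← hcen _ (hL.mem hx), mul_inv_cancel_right]) e.symm, commutatorElement_def]
    exact mul_mem (hM.stable h hh y'' hy'') (inv_mem hy'')
  have hle : L ≤ Subgroup.normalizer (M : Set Γ) := fun x hx => Subgroup.mem_normalizer_iff.2 fun y =>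
    ⟨key x hx y, fun hy => by
      have := key x⁻¹ (inv_mem hx) _ hy
      simpa [mul_assoc] using this⟩
  have hmem : ∀ z ∈ L ⊔ M, ∃ x ∈ L, ∃ y ∈ M, z = x * y := by
    intro z hz
    rw [← SetLike.mem_coe, Subgroup.coe_mul_of_left_le_normalizer_right L M hle, Set.mem_mul] at hz
    obtain ⟨x, hx, y, hy, rfl⟩ := hz
    exact ⟨x, hx, y, hy, rfl⟩
  refine ⟨⟨by rw [Subgroup.map_sup, hL.map, hM.map], fun z hz e => ?_, fun t ht z hz => ?_⟩, hmem⟩
  · obtain ⟨x, hx, y, hy, rfl⟩ := hmem z hz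
    rw [map_mul, mul_eq_one_iff_eq_inv] at e
    have h1 : s x = 1 := hdis _ (hL.mem hx) (e ▸ inv_mem (hM.mem hy))
    rw [h1, eq_comm, inv_eq_one] at e
    rw [hL.inj x hx h1, hM.inj y hy e, one_mul]
  · obtain ⟨x, hx, y, hy, rfl⟩ := hmem z hz
    rw [show t * (x * y) * t⁻¹ = (t * x * t⁻¹) * (t * y * t⁻¹) by group]
    exact mul_mem (Subgroup.mem_sup_left (hL.stable t ht x hx)) (Subgroup.mem_sup_right (hM.stable t ht y hy))

/-- A class whose preimage has commutator subgroup meeting the kernel trivially lifts. -/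
theorem exists_good_class (hc : s.ker ≤ Subgroup.center Γ) {X : Subgroup G} [Finite X] (hX : X ≤ s.range)
    (hT : T0 ≤ s.range) (hcomm : ∀ a ∈ T0, ∀ b ∈ T0, a * b = b * a) (hXT : ∀ t ∈ T0, ∀ x ∈ X, t * x * t⁻¹ ∈ X)
    {h : G} (hh : h ∈ T0) (hf : Fpf h X) (hN : ∀ x ∈ ⁅X.comap s, X.comap s⁆, s x = 1 → x = 1) :
    ∃ L : Subgroup Γ, Good s T0 L X := by
  obtain ⟨h, rfl⟩ := hT hh
  set P := X.comap s with hP
  set N := ⁅P, P⁆ with hNdef
  have hNP : N ≤ P := Subgroup.commutator_le.2 fun a ha b hb => by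
    rw [commutatorElement_def]; exact mul_mem (mul_mem (mul_mem ha hb) (inv_mem ha)) (inv_mem hb)
  have hconjP : ∀ t, s t ∈ T0 → ∀ y ∈ P, t * y * t⁻¹ ∈ P := fun t ht y hy => by
    simp only [hP, Subgroup.mem_comap, map_mul, map_inv] at hy ⊢
    exact hXT _ ht _ hy
  have hnormP : ∀ g, (∀ y ∈ P, g * y * g⁻¹ ∈ P) → ∀ n ∈ N, g * n * g⁻¹ ∈ N := fun g hg n hn => by
    have hle : N ≤ N.comap (MulAut.conj g).toMonoidHom := by
      rw [hNdef, Subgroup.commutator_le]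
      intro a ha b hb
      rw [Subgroup.mem_comap, map_commutatorElement]
      exact Subgroup.commutator_mem_commutator (hg a ha) (hg b hb)
    exact hle hn
  have hPP : ∀ g ∈ P, ∀ y ∈ P, g * y * g⁻¹ ∈ P := fun g hg y hy => mul_mem (mul_mem hg hy) (inv_mem hg)
  have hbr : ∀ y ∈ P, ⁅h, y⁆ ∈ P := fun y hy => by
    rw [commutatorElement_def]; exact mul_mem (hconjP h hh y hy) (inv_mem hy)
  let L : Subgroup Γ :=
    { carrier := {x | ∃ y ∈ P, ∃ n ∈ N, x = ⁅h, y⁆ * n}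
      one_mem' := ⟨1, one_mem _, 1, one_mem _, by simp⟩
      mul_mem' := by
        rintro _ _ ⟨y, hy, n, hn, rfl⟩ ⟨y', hy', n', hn', rfl⟩
        refine ⟨y * y', mul_mem hy hy', (⁅h, y⁆ * ⁅y, ⁅h, y'⁆⁆ * ⁅h, y'⁆)⁻¹ *
            (⁅h, y⁆ * n * (⁅h, y'⁆ * n')), ?_, ?_⟩
        · rw [show (⁅h, y⁆ * ⁅y, ⁅h, y'⁆⁆ * ⁅h, y'⁆)⁻¹ * (⁅h, y⁆ * n * (⁅h, y'⁆ * n')) =
            (⁅h, y'⁆⁻¹ * (⁅y, ⁅h, y'⁆⁆⁻¹ * n) * (⁅h, y'⁆⁻¹)⁻¹) * n' by group]
          exact mul_mem (hnormP _ (fun w hw => hPP _ (inv_mem (hbr y' hy')) w hw) _ (mul_mem (inv_mem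
            (Subgroup.commutator_mem_commutator hy (hbr y' hy'))) hn)) hn'
        · have e : ⁅h, y * y'⁆ = ⁅h, y⁆ * ⁅y, ⁅h, y'⁆⁆ * ⁅h, y'⁆ := by
            simp only [commutatorElement_def]; group
          rw [e]; group
      inv_mem' := by
        rintro _ ⟨y, hy, n, hn, rfl⟩
        refine ⟨y⁻¹, inv_mem hy, ⁅h, y⁻¹⁆⁻¹ * (⁅h, y⁆ * n)⁻¹, ?_, by group⟩
        have e : ⁅h, y⁻¹⁆⁻¹ * ⁅h, y⁆⁻¹ = ⁅y⁻¹, ⁅h, y⁆⁆ := by
          simp only [commutatorElement_def]; group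
        rw [show ⁅h, y⁻¹⁆⁻¹ * (⁅h, y⁆ * n)⁻¹ =
          (⁅h, y⁻¹⁆⁻¹ * n⁻¹ * (⁅h, y⁻¹⁆⁻¹)⁻¹) * (⁅h, y⁻¹⁆⁻¹ * ⁅h, y⁆⁻¹) by group, e]
        exact mul_mem (hnormP _ (fun w hw => hPP _ (inv_mem (hbr _ (inv_mem hy))) w hw) _ (inv_mem hn))
          (Subgroup.commutator_mem_commutator (inv_mem hy) (hbr y hy)) }
  refine ⟨L, le_antisymm ?_ ?_, ?_, ?_⟩
  · rintro _ ⟨_, ⟨y, hy, n, hn, rfl⟩, rfl⟩
    exact mul_mem (hbr y hy) (hNP hn)
  · intro g hg
    obtain ⟨w, hw, rfl⟩ := hf.exists_comm_eq (hXT _ hh) hg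
    obtain ⟨y, rfl⟩ := hX hw
    exact ⟨⁅h, y⁆, ⟨y, hw, 1, one_mem _, (mul_one _).symm⟩, map_commutatorElement s h y⟩
  · rintro _ ⟨y, hy, n, hn, rfl⟩ e
    haveI : Finite ↥(N.map s) := Finite.of_injective
      (fun z => (⟨(z : G), Subgroup.map_le_iff_le_comap.2 hNP z.2⟩ : ↥X))
      (fun _ _ e => Subtype.ext (Subtype.mk.injEq _ _ _ _ ▸ e))
    have hfN : Fpf (s h) (N.map s) := fun x hx => hf x (Subgroup.map_le_iff_le_comap.2 hNP hx)
    rw [map_mul, map_commutatorElement, mul_eq_one_iff_eq_inv] at e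
    obtain ⟨_, ⟨n', hn', rfl⟩, e'⟩ := hfN.exists_comm_eq (fun x hx => by
      obtain ⟨a, ha, rfl⟩ := hx
      exact ⟨h * a * h⁻¹, hnormP h (hconjP h hh) a ha, by simp⟩) (inv_mem (Subgroup.mem_map_of_mem s hn))
    have hy' : s y = s n' := by
      have e2 : s h * s y * (s h)⁻¹ * (s y)⁻¹ = s h * s n' * (s h)⁻¹ * (s n')⁻¹ := e.trans e'.symm
      refine (inv_mul_eq_one.1 (hf ((s n')⁻¹ * s y) (mul_mem (inv_mem (hNP hn')) hy) ?_)).symm
      calc s h * ((s n')⁻¹ * s y) * (s h)⁻¹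
          = (s h * s n' * (s h)⁻¹)⁻¹ * (s h * s y * (s h)⁻¹ * (s y)⁻¹) * s y := by group
        _ = _ := by rw [e2]; group
    rw [Cfsg.Agent.H82.Chev.commutator_congr hc rfl hy']
    refine hN _ (mul_mem ?_ hn) (by rw [map_mul, map_commutatorElement, e', inv_mul_cancel])
    rw [commutatorElement_def]
    exact mul_mem (hnormP h (hconjP h hh) n' hn') (inv_mem hn')
  · rintro t ht _ ⟨y, hy, n, hn, rfl⟩
    refine ⟨t * y * t⁻¹, hconjP t ht y hy, t * n * t⁻¹, hnormP t (hconjP t ht) n hn, ?_⟩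
    have e : ⁅t * h * t⁻¹, t * y * t⁻¹⁆ = ⁅h, t * y * t⁻¹⁆ :=
      Cfsg.Agent.H82.Chev.commutator_congr hc (by
        rw [map_mul, map_mul, map_inv, hcomm _ ht _ hh, mul_inv_cancel_right]) rfl
    rw [← e]
    simp only [commutatorElement_def]
    group

end Cfsg.Agent.H70.F4Mult
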