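import Cfsg.Agent.H70.F4Mult.Roots

/-!
Rank-one relations of the twisted group of type F₄ and the intersection of the Weyl lifts with the diagonal group.
-/

set_option autoImplicit false
set_option maxRecDepth 100000

open Cfsg.Lie Cfsg.Agent.H46 Cfsg.Agent.H65.Twist Cfsg.Agent.H70.F4Out Cfsg.Agent.H47

namespace Cfsg.Agent.H70.F4Mult

variable {K : Type*} [Field K] [Fintype K] [CharP K 2] {m : ℕ} (hK : Fintype.card K = 2 ^ (2 * m + 1))

theorem chk_top : chkEqMod chevF4 tabF4 2 (f4WordB ++ [(27, 0), (25, 0), (28, 1), (30, 1)] ++ f4WordB)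
    ([(27, 1), (25, 1), (28, 0), (30, 1)] ++ f4WordB ++ [(27, 1), (25, 1), (28, 1), (30, 0)]) = true := by
  decide +kernel

theorem chk_lead : chkEqMod chevF4 tabF4 2 (f4WordB ++ [(27, 1), (25, 1), (28, 1), (30, 0)] ++ f4WordB)
    ([(27, 1), (25, 1), (28, 1), (30, 0)] ++ f4WordB ++ [(27, 0), (25, 0), (28, 1), (30, 1)]) = true := by
  decide +kernel

theorem rank_one_base :
    (TD hK).nS 1 * b2U K m 0 1 * (TD hK).nS 1 = b2U K m 1 1 * (TD hK).nS 1 * b2U K m 1 0 ∧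
    (TD hK).nS 1 * b2U K m 1 0 * (TD hK).nS 1 = b2U K m 1 0 * (TD hK).nS 1 * b2U K m 0 1 := by
  obtain ⟨-, hB⟩ := coe_f4N (K := K)
  have h01 : (b2U K m (0 : K) 1 : GL chevF4.Idx K) = wordEl goodF4 [(27, 0), (25, 0), (28, 1), (30, 1)] := by
    simp [b2U, B2Block.word, f4Pos, wordEl, xE, mul_assoc, goodF4.xg_zero]
  have h10 : (b2U K m (1 : K) 0 : GL chevF4.Idx K) = wordEl goodF4 [(27, 1), (25, 1), (28, 1), (30, 0)] := by
    simp [b2U, B2Block.word, f4Pos, wordEl, xE, mul_assoc, goodF4.xg_zero]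
  have h11 : (b2U K m (1 : K) 1 : GL chevF4.Idx K) = wordEl goodF4 [(27, 1), (25, 1), (28, 0), (30, 1)] := by
    simp [b2U, B2Block.word, f4Pos, wordEl, xE, mul_assoc, CharTwo.add_self_eq_zero, goodF4.xg_zero]
  constructor <;> apply Subtype.ext
  · show (f4N K 1 : GL chevF4.Idx K) * (b2U K m (0 : K) 1 : GL chevF4.Idx K) * (f4N K 1 : GL chevF4.Idx K) =
      (b2U K m (1 : K) 1 : GL chevF4.Idx K) * (f4N K 1 : GL chevF4.Idx K) * (b2U K m (1 : K) 0 : GL chevF4.Idx K)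
    rw [hB, h01, h10, h11, ← wordEl_append, ← wordEl_append, ← wordEl_append, ← wordEl_append]
    exact wordEl_eq goodF4 (p := 2) chk_top
  · show (f4N K 1 : GL chevF4.Idx K) * (b2U K m (1 : K) 0 : GL chevF4.Idx K) * (f4N K 1 : GL chevF4.Idx K) =
      (b2U K m (1 : K) 0 : GL chevF4.Idx K) * (f4N K 1 : GL chevF4.Idx K) * (b2U K m (0 : K) 1 : GL chevF4.Idx K)
    rw [hB, h01, h10, ← wordEl_append, ← wordEl_append, ← wordEl_append, ← wordEl_append]
    exact wordEl_eq goodF4 (p := 2) chk_lead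

/-- The relation for the top, transported by the diagonal group. -/
theorem rank_one_top (μ : Kˣ) : ∃ h ∈ (TD hK).H0,
    (TD hK).nS 1 * b2U K m 0 (iterateFrobenius K 2 m ((μ⁻¹ : Kˣ) : K) * ((μ⁻¹ : Kˣ) : K)) * (TD hK).nS 1 =
      b2U K m μ (iterateFrobenius K 2 m (μ : K) * (μ : K)) * h * (TD hK).nS 1 * b2U K m μ 0 := by
  obtain ⟨τ, hτ⟩ := exists_wt hK 1 μ
  set n := (TD hK).nS 1 with hn
  refine ⟨τ * (n * τ⁻¹ * n⁻¹), mul_mem hτ.1 ((TD hK).H0_conj 1 _ (inv_mem hτ.1)), ?_⟩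
  have h1 : n * τ * n⁻¹ * b2U K m 0 1 * (n * τ * n⁻¹)⁻¹ =
      b2U K m 0 (iterateFrobenius K 2 m ((μ⁻¹ : Kˣ) : K) * ((μ⁻¹ : Kˣ) : K)) := by
    rw [hτ.conj.2.2.2]; simp
  rw [← h1]
  have e := (rank_one_base hK).1
  have hnn : n⁻¹ = n := nS_inv hK 1
  calc n * (n * τ * n⁻¹ * b2U K m 0 1 * (n * τ * n⁻¹)⁻¹) * n
      = n * n * τ * n⁻¹ * b2U K m 0 1 * n * τ⁻¹ * (n⁻¹ * n) := by group
    _ = τ * (n * b2U K m 0 1 * n) * τ⁻¹ := by rw [inv_mul_cancel, nS_sq_one hK 1, hnn]; group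
    _ = (τ * b2U K m 1 1 * τ⁻¹) * (τ * (n * τ⁻¹ * n⁻¹)) * n * (τ * b2U K m 1 0 * τ⁻¹) := by rw [hn, e]; group
    _ = _ := by rw [hτ.2.2, hτ.2.2]; simp

/-- An element of the group of the representatives is fixed by the field automorphisms. -/
theorem field_fix_of_mem {d : ↥(chevF4.group K)} (hd : d ∈ Subgroup.closure (Set.range (TD hK).nS)) (σ : K ≃+* K) :
    d ∈ (TD hK).G1 ∧ ap (fieldAut hK σ) d = d := by
  induction hd using Subgroup.closure_induction with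
  | mem x hx =>
    obtain ⟨j, rfl⟩ := hx
    exact ⟨(TD hK).N0_le_G1 ((TD hK).nS_mem_N0 j), field_nS hK σ j⟩
  | one => exact ⟨one_mem _, ap_one _⟩
  | mul a b _ _ ha hb => exact ⟨mul_mem ha.1 hb.1, by rw [ap_mul _ ha.1 hb.1, ha.2, hb.2]⟩
  | inv a _ ha => exact ⟨inv_mem ha.1, by rw [ap_inv _ ha.1, ha.2]⟩

/-- The group of the representatives meets the diagonal group trivially. -/
theorem closure_nS_inf_H0 {d : ↥(chevF4.group K)} (hd : d ∈ Subgroup.closure (Set.range (TD hK).nS))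
    (hd' : d ∈ (TD hK).H0) : d = 1 := by
  obtain ⟨α, β, hw⟩ := exists_wt_of_mem hK hd'
  haveI : Fact (Nat.Prime 2) := ⟨Nat.prime_two⟩
  obtain ⟨hG, hfix⟩ := field_fix_of_mem hK hd (frobeniusEquiv K 2)
  have hα : α = 1 := by
    have e := congrArg (ap (fieldAut hK (frobeniusEquiv K 2))) (hw.2.1 1)
    rw [ap_conj _ hG (pairU_G1 hK 1), hfix, field_pairU, field_pairU, hw.2.1, map_one, mul_one] at e
    have h2 : (α : K) = (α : K) ^ 2 := by simpa [frobenius_def] using pairU_injective e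
    exact Units.ext ((mul_eq_left₀ α.ne_zero).1 (by rw [← pow_two]; exact h2.symm))
  have hβ : β = 1 := by
    have e := congrArg (ap (fieldAut hK (frobeniusEquiv K 2))) (hw.2.2 1 0)
    rw [ap_conj _ hG (b2U_G1 hK 1 0), hfix, field_b2U, field_b2U, hw.2.2, map_one, map_zero, mul_one] at e
    have h2 : (β : K) = (β : K) ^ 2 := by simpa [frobenius_def] using (b2U_injective e).1
    exact Units.ext ((mul_eq_left₀ β.ne_zero).1 (by rw [← pow_two]; exact h2.symm))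
  subst hα hβ
  exact hw.eq_one

theorem appR_rho : ∀ r : Fin chevF4.nroots,
    appR f4Wn ([1, 0, 1, 0, 1, 0, 1, 0, 1, 0, 1, 0, 1, 0, 1, 0] : List (Fin 2)) r.val = r.val := by
  decide +kernel

/-- The product of the representatives has order dividing eight. -/
theorem rho_pow : ((TD hK).nS 0 * (TD hK).nS 1) ^ 8 = 1 := by
  set ρ := (TD hK).nS 0 * (TD hK).nS 1 with hρ
  have hmem : ρ ^ 8 ∈ Subgroup.closure (Set.range (TD hK).nS) :=
    pow_mem (mul_mem (Subgroup.subset_closure (Set.mem_range_self (f := (TD hK).nS) 0))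
      (Subgroup.subset_closure (Set.mem_range_self (f := (TD hK).nS) 1))) _
  refine closure_nS_inf_H0 hK hmem ?_
  have e : ρ ^ 8 = repW (f4Setup K hK) ([1, 0, 1, 0, 1, 0, 1, 0, 1, 0, 1, 0, 1, 0, 1, 0] : List (Fin 2)) := by
    simp only [repW, one_mul, hρ, pow_succ, pow_zero, mul_assoc]
    rfl
  rw [e, WeylTable.mem_H0_iff (WeylTable.repW_mem _)]
  exact Equiv.ext fun r => Fin.ext (((f4Table K hK).perm_repW _ r).trans (appR_rho r))

end Cfsg.Agent.H70.F4Mult
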