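import Cfsg.Agent.H70.F4Mult.Weights

/-!
Commutator relations between four classes of roots of the twisted group of type F₄.
-/

set_option autoImplicit false
set_option maxRecDepth 100000

open Cfsg.Lie Cfsg.Agent.H46 Cfsg.Agent.H65.Twist Cfsg.Agent.H70.F4Out
open scoped Matrix MatrixGroups commutatorElement

namespace Cfsg.Agent.H70.F4Mult

variable {K : Type*} [Field K] [Fintype K] [CharP K 2] {m : ℕ} (hK : Fintype.card K = 2 ^ (2 * m + 1))

/-- The representative moving the class to the first neighbour. -/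
noncomputable def cR : ↥(chevF4.group K) := (TD hK).nS 0

/-- The representative moving the class to the second neighbour. -/
noncomputable def cQ : ↥(chevF4.group K) := (TD hK).nS 1 * (TD hK).nS 0

/-- The representative moving the class to the middle one. -/
noncomputable def cA : ↥(chevF4.group K) := (TD hK).nS 0 * ((TD hK).nS 1 * (TD hK).nS 0)

/-- The elements of the first neighbour. -/
noncomputable def Rel (u : K) : ↥(chevF4.group K) := cR hK * b2U K m 0 u * (cR hK)⁻¹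

/-- The elements of the second neighbour. -/
noncomputable def Qel (u : K) : ↥(chevF4.group K) := cQ hK * b2U K m 0 u * (cQ hK)⁻¹

/-- The elements of the middle class. -/
noncomputable def Ael (t u : K) : ↥(chevF4.group K) := cA hK * b2U K m t u * (cA hK)⁻¹

/-- A monomial element carries a set of positive root groups into another. -/
theorem conj_posSub {g : GL chevF4.Idx K} (hg : g ∈ chevF4.monomialSubgroup K) {S S' : Set ℕ}
    (h : ∀ r : Fin chevF4.nroots, r.val ∈ S → (goodF4.perm g r).val ∈ S' ∧ 24 ≤ (goodF4.perm g r).val)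
    {x : GL chevF4.Idx K} (hx : x ∈ goodF4.posSub (F := K) S) : g * x * g⁻¹ ∈ goodF4.posSub S' := by
  have : goodF4.posSub (F := K) S ≤ (goodF4.posSub S').comap (MulAut.conj g).toMonoidHom := by
    refine (Subgroup.closure_le _).2 ?_
    rintro x ⟨r, t, ⟨hr, hrS⟩, rfl⟩
    obtain ⟨c, hc⟩ := goodF4.conj_xg_eq hg ⟨r, hr.1⟩
    simp only [SetLike.mem_coe, Subgroup.mem_comap, MulEquiv.coe_toMonoidHom, MulAut.conj_apply]
    rw [show g * goodF4.xg r t * g⁻¹ = _ from hc t]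
    obtain ⟨h1, h2⟩ := h ⟨r, hr.1⟩ hrS
    exact goodF4.xg_mem_posSub (goodF4.isPosRoot_iff.2 ⟨h2, (goodF4.perm g _).2⟩) h1 _
  exact this hx

theorem perm_facts :
    (∀ r : Fin chevF4.nroots, r.val ∈ [25, 27, 28, 30] →
      (f4WJ 0 (f4WJ 1 (f4WJ 0 r))).val ∈ [29, 41, 44, 47] ∧ 24 ≤ (f4WJ 0 (f4WJ 1 (f4WJ 0 r))).val) ∧
    (∀ r : Fin chevF4.nroots, r.val ∈ [28, 30] →
      ((f4WJ 0 r).val ∈ [36, 42] ∧ 24 ≤ (f4WJ 0 r).val) ∧
        ((f4WJ 1 (f4WJ 0 r)).val ∈ [40, 46] ∧ 24 ≤ (f4WJ 1 (f4WJ 0 r)).val)) ∧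
    (∀ r : Fin chevF4.nroots, r.val ∈ [36, 42] → (f4WJ 0 r).val ∈ [28, 30] ∧ 24 ≤ (f4WJ 0 r).val) := by
  decide +kernel

omit [Fintype K] [CharP K 2] in
theorem f4N_mon (j : Fin 2) : (f4N K j : GL chevF4.Idx K) ∈ chevF4.monomialSubgroup K := goodF4.nProd_mem _

theorem b2U_posSub (t u : K) :
    (b2U K m t u : GL chevF4.Idx K) ∈ goodF4.posSub (F := K) {r | r ∈ [25, 27, 28, 30]} := by
  simpa [f4Cls] using mem_f4Class (b2U_class (m := m) t u)

theorem top_posSub (u : K) : (b2U K m 0 u : GL chevF4.Idx K) ∈ goodF4.posSub (F := K) {r | r ∈ [28, 30]} := by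
  rw [b2U, map_zero, mul_zero, zero_add]
  show goodF4.xg 27 (0 : K) * goodF4.xg 25 0 * goodF4.xg 28 u * goodF4.xg 30 _ ∈ _
  rw [goodF4.xg_zero, goodF4.xg_zero, one_mul, one_mul]
  exact mul_mem (goodF4.xg_mem_posSub (by decide +kernel) (by simp) _)
    (goodF4.xg_mem_posSub (by decide +kernel) (by simp) _)

theorem Ael_posSub (t u : K) : (Ael hK t u : GL chevF4.Idx K) ∈ goodF4.posSub (F := K) {r | r ∈ [29, 41, 44, 47]} :=
  conj_posSub (g := (cA hK : GL chevF4.Idx K))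
    (mul_mem (f4N_mon 0) (mul_mem (f4N_mon 1) (f4N_mon 0))) (fun r hr => by
      rw [show (cA hK : GL chevF4.Idx K) =
        (f4N K 0 : GL chevF4.Idx K) * ((f4N K 1 : GL chevF4.Idx K) * (f4N K 0 : GL chevF4.Idx K)) from rfl,
        goodF4.perm_mul (f4N_mon 0) (mul_mem (f4N_mon 1) (f4N_mon 0)), goodF4.perm_mul (f4N_mon 1) (f4N_mon 0),
        Equiv.Perm.mul_apply, Equiv.Perm.mul_apply, f4N_perm, f4N_perm, f4N_perm]
      exact perm_facts.1 r hr) (b2U_posSub t u)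

theorem Qel_posSub (u : K) : (Qel hK u : GL chevF4.Idx K) ∈ goodF4.posSub (F := K) {r | r ∈ [40, 46]} :=
  conj_posSub (g := (cQ hK : GL chevF4.Idx K)) (mul_mem (f4N_mon 1) (f4N_mon 0)) (fun r hr => by
      rw [show (cQ hK : GL chevF4.Idx K) =
        (f4N K 1 : GL chevF4.Idx K) * (f4N K 0 : GL chevF4.Idx K) from rfl, goodF4.perm_mul (f4N_mon 1) (f4N_mon 0), Equiv.Perm.mul_apply, f4N_perm, f4N_perm]
      exact (perm_facts.2.1 r hr).2) (top_posSub u)

theorem Rel_posSub (u : K) : (Rel hK u : GL chevF4.Idx K) ∈ goodF4.posSub (F := K) {r | r ∈ [36, 42]} :=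
  conj_posSub (g := (cR hK : GL chevF4.Idx K)) (f4N_mon 0) (fun r hr => by
      rw [show (cR hK : GL chevF4.Idx K) = (f4N K 0 : GL chevF4.Idx K) from rfl, f4N_perm]
      exact (perm_facts.2.1 r hr).1) (top_posSub u)

theorem pairU_posSub (t : K) : (pairU K m t : GL chevF4.Idx K) ∈ goodF4.posSub (F := K) {r | r ∈ [24, 33]} := by
  simpa [f4Cls] using mem_f4Class (pairU_class (m := m) t)

/-- Positive root groups commute when the coefficients are even. -/
theorem posSub_commute {L L' : List ℕ} (h : ∀ r ∈ L, ∀ s ∈ L', r < chevF4.nroots ∧ s < chevF4.nroots ∧ s ≠ r ∧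
      s ≠ chevF4.neg r ∧ ∀ c ∈ chevF4.commTerms r s, c.2.1 % 2 = 0)
    {x y : GL chevF4.Idx K} (hx : x ∈ goodF4.posSub (F := K) {r | r ∈ L})
    (hy : y ∈ goodF4.posSub (F := K) {r | r ∈ L'}) : x * y = y * x := by
  have h1 : ∀ r ∈ L, ∀ t : K, goodF4.posSub (F := K) {r | r ∈ L'} ≤ Subgroup.centralizer {goodF4.xg r t} := by
    intro r hr t
    refine (Subgroup.closure_le _).2 ?_
    rintro g ⟨s, v, ⟨-, hs⟩, rfl⟩
    obtain ⟨a, b, hne, hn, hc⟩ := h r hr s hs
    refine Subgroup.mem_centralizer_iff.2 fun z hz => ?_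
    rw [Set.mem_singleton_iff] at hz
    rw [hz]
    exact Cfsg.Agent.H65.xg_commute goodF4 a b hne hn (fun c hc' => (CharP.intCast_eq_zero_iff K 2 _).2
      (Int.dvd_of_emod_eq_zero (by exact_mod_cast hc c hc'))) t v
  have h2 : goodF4.posSub (F := K) {r | r ∈ L} ≤ Subgroup.centralizer {y} := by
    refine (Subgroup.closure_le _).2 ?_
    rintro g ⟨r, t, ⟨-, hr⟩, rfl⟩
    refine Subgroup.mem_centralizer_iff.2 fun z hz => ?_
    rw [Set.mem_singleton_iff] at hz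
    rw [hz]
    exact (Subgroup.mem_centralizer_iff.1 (h1 r hr t hy) _ rfl).symm
  exact (Subgroup.mem_centralizer_iff.1 (h2 hx) y rfl).symm

theorem Rel_Qel_commute (v w : K) : Rel hK v * Qel hK w = Qel hK w * Rel hK v :=
  Subtype.ext (posSub_commute (by decide +kernel) (Rel_posSub hK v) (Qel_posSub hK w))

theorem Ael_Qel_commute (t u w : K) : Ael hK t u * Qel hK w = Qel hK w * Ael hK t u :=
  Subtype.ext (posSub_commute (by decide +kernel) (Ael_posSub hK t u) (Qel_posSub hK w))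

theorem Ael_fixed (t u : K) : f4Tau K m (Ael hK t u) = Ael hK t u := by
  have hn : ∀ j, f4Tau K m ((TD hK).nS j) = (TD hK).nS j := fun j => (f4Setup K hK).W_fixed _ (f4N_mem j)
  simp only [Ael, cA, map_mul, map_inv, hn, (f4Tau_rules hK t u).2.2.1]

omit [Fintype K] [CharP K 2] in
theorem posSub_mem_normalizer {L T : List ℕ} (hL : ∀ r ∈ L, chevF4.IsPosRoot r)
    (h : ∀ r ∈ L, ∀ s ∈ T, s ≠ r → ∀ c ∈ chevF4.commTerms r s, c.1 ∈ T)
    {x : GL chevF4.Idx K} (hx : x ∈ goodF4.posSub (F := K) {r | r ∈ L}) :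
    x ∈ Subgroup.normalizer (goodF4.posSub (F := K) {r | r ∈ T} : Set (GL chevF4.Idx K)) := by
  refine (Subgroup.closure_le _).2 ?_ hx
  rintro g ⟨r, t, ⟨-, hr⟩, rfl⟩
  exact goodF4.xg_mem_normalizer_posSub (hL r hr) (fun s _ hs hne c hc => h r hr s hs hne c hc) t

omit [Fintype K] [CharP K 2] in
theorem comm_mem_posSub {L L' T : List ℕ} (hL : ∀ r ∈ L, chevF4.IsPosRoot r) (hL' : ∀ r ∈ L', chevF4.IsPosRoot r)
    (h1 : ∀ r ∈ L, ∀ s ∈ T, s ≠ r → ∀ c ∈ chevF4.commTerms r s, c.1 ∈ T)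
    (h2 : ∀ r ∈ L', ∀ s ∈ T, s ≠ r → ∀ c ∈ chevF4.commTerms r s, c.1 ∈ T)
    (h : ∀ r ∈ L, ∀ s ∈ L', s ≠ r ∧ s ≠ chevF4.neg r ∧ ∀ c ∈ chevF4.commTerms r s, c.1 ∈ T ∧ chevF4.IsPosRoot c.1)
    {x y : GL chevF4.Idx K} (hx : x ∈ goodF4.posSub (F := K) {r | r ∈ L})
    (hy : y ∈ goodF4.posSub (F := K) {r | r ∈ L'}) : ⁅x, y⁆ ∈ goodF4.posSub (F := K) {r | r ∈ T} := by
  set N := goodF4.posSub (F := K) {r | r ∈ T}
  have hn : ∀ g, g ∈ goodF4.posSub (F := K) {r | r ∈ L} ∨ g ∈ goodF4.posSub (F := K) {r | r ∈ L'} →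
      ∀ w, g * w * g⁻¹ ∈ N ↔ w ∈ N := fun g hg w =>
    ((Subgroup.mem_normalizer_iff.1 (hg.elim (posSub_mem_normalizer hL h1) (posSub_mem_normalizer hL' h2))) w).symm
  -- a generator against the second group
  have hgen : ∀ r ∈ L, ∀ t : K, ∀ y ∈ goodF4.posSub (F := K) {r | r ∈ L'}, ⁅goodF4.xg r t, y⁆ ∈ N := by
    intro r hr t y hy
    induction hy using Subgroup.closure_induction with
    | mem g hg =>
      obtain ⟨s, v, ⟨hs, hsL⟩, rfl⟩ := hg
      obtain ⟨hne, hneg, hc⟩ := h r hr s hsL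
      obtain ⟨w, hw, e⟩ := goodF4.exists_comm (hL r hr).1 hs.1 hne hneg t v
      have hwN : w ∈ N := (Subgroup.closure_le _).2 (by
        rintro g ⟨c, hc', v', rfl⟩
        exact goodF4.xg_mem_posSub (hc c hc').2 (hc c hc').1 v') hw
      have e2 : ⁅goodF4.xg r t, goodF4.xg s v⁆ = goodF4.xg r t * (goodF4.xg s v * w⁻¹ * (goodF4.xg s v)⁻¹) *
          (goodF4.xg r t)⁻¹ * ((goodF4.xg r t * goodF4.xg s v * w) * (goodF4.xg s v * goodF4.xg r t)⁻¹) := by
        rw [← e, mul_inv_cancel, mul_one, commutatorElement_def]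
        have e' : w⁻¹ = (goodF4.xg r t * goodF4.xg s v * w)⁻¹ * (goodF4.xg r t * goodF4.xg s v) := by group
        rw [e', ← e]
        group
      rw [e2, ← e, mul_inv_cancel, mul_one, hn _ (Or.inl (goodF4.xg_mem_posSub (S := {r | r ∈ L}) (hL r hr) hr t)),
        hn _ (Or.inr (goodF4.xg_mem_posSub (S := {r | r ∈ L'}) hs hsL v))]
      exact inv_mem hwN
    | one => simp
    | mul a b ha hb iha ihb =>
      rw [show ⁅goodF4.xg r t, a * b⁆ = ⁅goodF4.xg r t, a⁆ * (a * ⁅goodF4.xg r t, b⁆ * a⁻¹) by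
        simp only [commutatorElement_def]; group]
      exact mul_mem iha ((hn a (Or.inr ha) _).2 ihb)
    | inv a ha iha =>
      rw [show ⁅goodF4.xg r t, a⁻¹⁆ = a⁻¹ * ⁅goodF4.xg r t, a⁆⁻¹ * a⁻¹⁻¹ by
        simp only [commutatorElement_def]; group]
      exact (hn a⁻¹ (Or.inr (inv_mem ha)) _).2 (inv_mem iha)
  induction hx using Subgroup.closure_induction with
  | mem g hg =>
    obtain ⟨r, t, ⟨-, hr⟩, rfl⟩ := hg
    exact hgen r hr t y hy
  | one => simp
  | mul a b ha hb iha ihb =>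
    rw [show ⁅a * b, y⁆ = (a * ⁅b, y⁆ * a⁻¹) * ⁅a, y⁆ by simp only [commutatorElement_def]; group]
    exact mul_mem ((hn a (Or.inl ha) _).2 ihb) iha
  | inv a ha iha =>
    rw [show ⁅a⁻¹, y⁆ = a⁻¹ * ⁅a, y⁆⁻¹ * a⁻¹⁻¹ by simp only [commutatorElement_def]; group]
    exact (hn a⁻¹ (Or.inl (inv_mem ha)) _).2 (inv_mem iha)

include hK in
/-- A fixed element of the top of the class. -/
theorem top_form {x : ↥(chevF4.group K)}
    (hx : (x : GL chevF4.Idx K) ∈ goodF4.posSub (F := K) {r | r ∈ [28, 30]}) (hf : f4Tau K m x = x) :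
    ∃ u, x = b2U K m 0 u := by
  have hcls : (x : GL chevF4.Idx K) ∈
      goodF4.posSub (F := K) {r | chevF4.IsPosRoot r ∧ chevF4.InRootSub {i | i ∈ f4Jl 1} r} := by
    refine (Subgroup.closure_le _).2 ?_ hx
    rintro g ⟨r, t, ⟨hr, hrL⟩, rfl⟩
    exact class_mem_posSub (j := 1) (by
      simp only [Set.mem_ofPred_eq, List.mem_cons, List.not_mem_nil, or_false] at hrL
      rcases hrL with rfl | rfl <;> simp [f4Cls]) hr.1 t
  obtain ⟨t, u, e⟩ := fixed_classB hK hcls hf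
  refine ⟨u, ?_⟩
  obtain ⟨s, ⟨hs, he⟩, -⟩ := goodF4.posSub_normal_form
    (Cfsg.Agent.H65.posClosed_list goodF4 [28, 30] (by decide +kernel)) hx
  rw [e] at he
  have h2 : ((b2U K m t u : ↥(chevF4.group K)) : GL chevF4.Idx K) = _ := he
  rw [b2U, b2word_ord, xB_eq_ord] at h2
  have h25 := goodF4.ordProd_injective _ le_rfl _ _ h2 25 (by decide +kernel) (by decide +kernel)
  rw [hs 25 (Or.inl (by simp)), if_pos rfl] at h25
  rw [e, h25]

/-- Conjugation by the middle class moves the pair class by the first neighbour. -/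
theorem Ael_conj_pairU (t u v : K) :
    ∃ w, Ael hK t u * pairU K m v * (Ael hK t u)⁻¹ = pairU K m v * Rel hK w := by
  set a := Ael hK t u
  set p := pairU K m v
  set g := p⁻¹ * a * p * a⁻¹ with hg
  have hgS : (g : GL chevF4.Idx K) ∈ goodF4.posSub (F := K) {r | r ∈ [36, 42]} := by
    have h := comm_mem_posSub (L := [24, 33]) (L' := [29, 41, 44, 47]) (T := [36, 42]) (by decide +kernel)
      (by decide +kernel) (by decide +kernel) (by decide +kernel) (by decide +kernel)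
      (inv_mem (pairU_posSub (m := m) v)) (Ael_posSub hK t u)
    simpa [commutatorElement_def, g, p, a, mul_assoc] using h
  have hgf : f4Tau K m g = g := by
    simp only [hg, map_mul, map_inv, p, a, Ael_fixed hK, (f4Tau_rules hK v 0).1]
  have hR : ((cR hK)⁻¹ * g * cR hK : ↥(chevF4.group K)).1 ∈ goodF4.posSub (F := K) {r | r ∈ [28, 30]} := by
    have := conj_posSub (g := (cR hK : GL chevF4.Idx K)⁻¹) (inv_mem (f4N_mon 0))
      (S := {r | r ∈ [36, 42]}) (S' := {r | r ∈ [28, 30]}) (fun r hr => by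
        have e : goodF4.perm (cR hK : GL chevF4.Idx K)⁻¹ r = f4WJ 0 r := by
          show goodF4.perm (f4N K 0 : GL chevF4.Idx K)⁻¹ r = _
          rw [goodF4.perm_inv (f4N_mon 0)]
          apply (goodF4.perm (f4N K 0 : GL chevF4.Idx K)).injective
          rw [f4N_perm 0 (f4WJ 0 r), f4_facts.invol]
          simp
        rw [e]; exact perm_facts.2.2 r hr) hgS
    simpa using this
  obtain ⟨w, hw⟩ := top_form hK hR (by
    simp only [map_mul, map_inv, cR, hgf, (f4Setup K hK).W_fixed _ (f4N_mem 0)]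
    rw [show f4Tau K m ((TD hK).nS 0) = (TD hK).nS 0 from (f4Setup K hK).W_fixed _ (f4N_mem 0)])
  refine ⟨w, ?_⟩
  rw [Rel, ← hw, hg]
  group

omit [Fintype K] in
theorem root_checks :
    chkEqMod chevF4 tabF4 2 (f4WordA ++ [(28, 1), (30, 1)] ++ f4WordA) [(36, 1), (42, 1)] = true ∧
    chkEqMod chevF4 tabF4 2 (f4WordB ++ [(36, 1), (42, 1)] ++ f4WordB) [(40, 1), (46, 1)] = true ∧
    chkEqMod chevF4 tabF4 2 (f4WordA ++ [(40, 1), (46, 1)] ++ f4WordA) [(44, 1), (47, 1)] = true ∧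
    chkEqMod chevF4 tabF4 2 [(33, 1), (24, 1), (40, 1), (46, 1), (24, 1), (33, 1), (46, 1), (40, 1)]
      [(44, 1), (47, 1)] = true ∧
    chkEqMod chevF4 tabF4 2 (f4WordA ++ f4WordA) [] = true ∧
    chkEqMod chevF4 tabF4 2 (f4WordB ++ f4WordB) [] = true := by
  decide +kernel

omit [Fintype K] in
theorem coe_f4N : (f4N K 0 : GL chevF4.Idx K) = wordEl goodF4 f4WordA ∧
    (f4N K 1 : GL chevF4.Idx K) = wordEl goodF4 f4WordB := by
  obtain ⟨s0, s1, s2, s3, n0, n1, n2, n3⟩ := f4_refl_roots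
  constructor
  · simp [f4N, f4Idx, f4Refl, Good.nProd, wordEl, f4WordA, Good.ng, s0, s3, n0, n3, CharTwo.neg_eq, mul_assoc]
  · simp [f4N, f4Idx, f4Refl, Good.nProd, wordEl, f4WordB, Good.ng, s1, s2, n1, n2, CharTwo.neg_eq, mul_assoc]

/-- The representatives are involutions. -/
theorem nS_sq_one (j : Fin 2) : (TD hK).nS j * (TD hK).nS j = 1 := by
  obtain ⟨hA, hB⟩ := coe_f4N (K := K)
  apply Subtype.ext
  show (f4N K j : GL chevF4.Idx K) * f4N K j = 1
  obtain rfl | rfl : j = 0 ∨ j = 1 := by omega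
  · rw [hA, ← wordEl_append, wordEl_eq goodF4 (p := 2) root_checks.2.2.2.2.1]; rfl
  · rw [hB, ← wordEl_append, wordEl_eq goodF4 (p := 2) root_checks.2.2.2.2.2]; rfl

theorem nS_inv (j : Fin 2) : ((TD hK).nS j)⁻¹ = (TD hK).nS j :=
  inv_eq_of_mul_eq_one_right (nS_sq_one hK j)

theorem pairU_inv (t : K) : (pairU K m t)⁻¹ = pairU K m t :=
  inv_eq_of_mul_eq_one_right (by rw [pairU_add, CharTwo.add_self_eq_zero, pairU_zero])

include hK in
theorem top_inv (u : K) : (b2U K m 0 u)⁻¹ = b2U K m 0 u :=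
  inv_eq_of_mul_eq_one_right (by rw [b2U_sq hK, map_zero, mul_zero, b2U_zero])

/-- The commutator of the two ends reaching the middle. -/
theorem comm_one : ⁅pairU K m 1, Qel hK 1⁆ = Ael hK 0 1 := by
  obtain ⟨c1, c2, c3, c4, -⟩ := root_checks
  obtain ⟨hA, hB⟩ := coe_f4N (K := K)
  have hP : (pairU K m (1 : K) : GL chevF4.Idx K) = wordEl goodF4 [(33, 1), (24, 1)] := by
    simp [pairU, wordEl, xE]
  have hT : (b2U K m (0 : K) 1 : GL chevF4.Idx K) = wordEl goodF4 [(28, 1), (30, 1)] := by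
    simp [b2U, B2Block.word, f4Pos, wordEl, xE, goodF4.xg_zero]
  have hQ : (Qel hK 1 : GL chevF4.Idx K) = wordEl goodF4 [(40, 1), (46, 1)] := by
    have e : Qel hK 1 = f4N K 1 * (f4N K 0 * b2U K m 0 1 * f4N K 0) * f4N K 1 := by
      show (TD hK).nS 1 * (TD hK).nS 0 * b2U K m 0 1 * ((TD hK).nS 1 * (TD hK).nS 0)⁻¹ = _
      rw [mul_inv_rev, nS_inv, nS_inv]; simp only [mul_assoc]; rfl
    rw [e]; simp only [Subgroup.coe_mul]
    rw [hA, hB, hT, ← wordEl_append, ← wordEl_append, wordEl_eq goodF4 (p := 2) c1,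
      ← wordEl_append, ← wordEl_append, wordEl_eq goodF4 (p := 2) c2]
  have hA' : (Ael hK 0 1 : GL chevF4.Idx K) = wordEl goodF4 [(44, 1), (47, 1)] := by
    have e : Ael hK 0 1 = f4N K 0 * Qel hK 1 * f4N K 0 := by
      show (TD hK).nS 0 * ((TD hK).nS 1 * (TD hK).nS 0) * b2U K m 0 1 *
          ((TD hK).nS 0 * ((TD hK).nS 1 * (TD hK).nS 0))⁻¹ =
        (TD hK).nS 0 * ((TD hK).nS 1 * (TD hK).nS 0 * b2U K m 0 1 * ((TD hK).nS 1 * (TD hK).nS 0)⁻¹) *
          (TD hK).nS 0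
      simp only [mul_inv_rev, nS_inv, mul_assoc]
    rw [e, Subgroup.coe_mul, Subgroup.coe_mul, hA, hQ, ← wordEl_append, ← wordEl_append,
      wordEl_eq goodF4 (p := 2) c3]
  have hQi : (Qel hK 1)⁻¹ = Qel hK 1 := by rw [Qel, conj_inv, top_inv hK]
  have hQw : (wordEl goodF4 [(40, 1), (46, 1)] : GL chevF4.Idx K) = wordEl goodF4 [(46, 1), (40, 1)] := by
    rw [← hQ, ← hQi, Subgroup.coe_inv, hQ]
    refine inv_eq_of_mul_eq_one_right ?_
    simp [wordEl, mul_assoc, goodF4.xg_inv, CharTwo.neg_eq]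
    rw [← mul_assoc (goodF4.xg 46 1) (goodF4.xg 46 1), goodF4.xg_add, CharTwo.add_self_eq_zero, goodF4.xg_zero,
      one_mul, goodF4.xg_add, CharTwo.add_self_eq_zero, goodF4.xg_zero]
  have hPw : (wordEl goodF4 [(33, 1), (24, 1)] : GL chevF4.Idx K) = wordEl goodF4 [(24, 1), (33, 1)] := by
    rw [← hP, pairU, f4_xE_comm (r := 33) (s := 24) (by simp)]
    simp [wordEl, xE]
  apply Subtype.ext
  rw [commutatorElement_def, pairU_inv, hQi]
  simp only [Subgroup.coe_mul]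
  rw [hA', hP, hQ]
  nth_rw 2 [hPw]
  nth_rw 2 [hQw]
  rw [← wordEl_append, ← wordEl_append, ← wordEl_append]
  exact wordEl_eq goodF4 (p := 2) c4

/-- Conjugating a weighted class element by a diagonal element. -/
theorem conj_top {g h : ↥(chevF4.group K)} {α β : Kˣ} (hw : Wt hK (g⁻¹ * h * g) α β) (t u : K) :
    h * (g * b2U K m t u * g⁻¹) * h⁻¹ =
      g * b2U K m ((β : K) * t) (iterateFrobenius K 2 m (β : K) * (β : K) * u) * g⁻¹ := by
  rw [← hw.2.2]; group

theorem cA_mem : cA hK ∈ (TD hK).N0 :=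
  mul_mem ((TD hK).nS_mem_N0 0) (mul_mem ((TD hK).nS_mem_N0 1) ((TD hK).nS_mem_N0 0))

theorem cQ_mem : cQ hK ∈ (TD hK).N0 := mul_mem ((TD hK).nS_mem_N0 1) ((TD hK).nS_mem_N0 0)

theorem nrm_eq_one (hK : Fintype.card K = 2 ^ (2 * m + 1)) {c : Kˣ}
    (e : iterateFrobenius K 2 m (c : K) * (c : K) = 1) : c = 1 := by
  have h1 := congrArg (iterateFrobenius K 2 (m + 1)) e
  rw [map_mul, map_one, (f4_frob hK (c : K)).1, f4_psi (c : K)] at h1
  have h3 : iterateFrobenius K 2 m (c : K) = 1 :=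
    mul_right_cancel₀ (b := iterateFrobenius K 2 m (c : K) * (c : K)) (by rw [e]; exact one_ne_zero)
      (by linear_combination h1 - e)
  rw [h3, one_mul] at e
  exact Units.ext e

theorem nrm_surjective (hK : Fintype.card K = 2 ^ (2 * m + 1)) {u : K} (hu : u ≠ 0) :
    ∃ β : Kˣ, iterateFrobenius K 2 m (β : K) * (β : K) = u := by
  let f : Kˣ →* Kˣ := Units.map (iterateFrobenius K 2 m).toMonoidHom * MonoidHom.id Kˣ
  have hinj : Function.Injective f := (injective_iff_map_eq_one f).2 fun c e =>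
    nrm_eq_one hK (congrArg Units.val e)
  obtain ⟨β, hβ⟩ := Finite.injective_iff_surjective.1 hinj (Units.mk0 u hu)
  exact ⟨β, congrArg Units.val hβ⟩

/-- Every element of the top of the middle class is a commutator of the two ends. -/
theorem Ael_top_comm (w : K) : ∃ t v, ⁅pairU K m t, Qel hK v⁆ = Ael hK 0 w := by
  by_cases hw : w = 0
  · refine ⟨0, 0, ?_⟩
    rw [pairU_zero, commutatorElement_one_left, hw, Ael, b2U_zero, mul_one, mul_inv_cancel]
  · obtain ⟨β, hβ⟩ := nrm_surjective hK hw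
    obtain ⟨h', hh'⟩ := exists_wt hK 1 β
    set h := cA hK * h' * (cA hK)⁻¹ with hdef
    have hh : h ∈ (TD hK).H0 := (TD hK).H0_normal (cA_mem hK) hh'.1
    obtain ⟨a, b, hab⟩ := exists_wt_of_mem hK hh
    obtain ⟨a', b', hab'⟩ := exists_wt_of_mem hK
      (h := (cQ hK)⁻¹ * h * cQ hK) (by simpa using (TD hK).H0_normal (inv_mem (cQ_mem hK)) hh)
    refine ⟨a, iterateFrobenius K 2 m (b' : K) * (b' : K), ?_⟩
    have e := congrArg (fun x => h * x * h⁻¹) (comm_one hK (m := m))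
    beta_reduce at e
    rw [show h * ⁅pairU K m 1, Qel hK 1⁆ * h⁻¹ = ⁅h * pairU K m 1 * h⁻¹, h * Qel hK 1 * h⁻¹⁆ by
      simp only [commutatorElement_def]; group, hab.2.1, mul_one, Qel, conj_top hK hab', Ael,
      conj_top hK (show Wt hK ((cA hK)⁻¹ * h * cA hK) 1 β by simpa [hdef, mul_assoc] using hh')] at e
    simpa [Qel, Ael, hβ] using e

end Cfsg.Agent.H70.F4Mult
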