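import Cfsg.Agent.H70.F4Out.Field
import Cfsg.Agent.H70.F4Mult.Basic

/-!
Weights of the diagonal group of a twisted group of type F₄ on the simple classes, and their behaviour under the
reflections.
-/

set_option autoImplicit false
set_option maxRecDepth 100000

open Cfsg.Lie Cfsg.Agent.H46 Cfsg.Agent.H65.Twist Cfsg.Agent.H70.F4Out

namespace Cfsg.Agent.H70.F4Mult

variable {K : Type*} [Field K] [Fintype K] [CharP K 2] {m : ℕ} (hK : Fintype.card K = 2 ^ (2 * m + 1))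

variable (K) (m) in
/-- The twisting map on the units. -/
noncomputable def phiU : Kˣ →* Kˣ := Units.map (iterateFrobenius K 2 (m + 1)).toMonoidHom

/-- A diagonal element with given weights. -/
def Wt (h : ↥(chevF4.group K)) (α β : Kˣ) : Prop :=
  h ∈ (TD hK).H0 ∧ (∀ t, h * pairU K m t * h⁻¹ = pairU K m ((α : K) * t)) ∧
    ∀ t u, h * b2U K m t u * h⁻¹ = b2U K m ((β : K) * t) (iterateFrobenius K 2 m (β : K) * (β : K) * u)

theorem exists_wt (α β : Kˣ) : ∃ h, Wt hK h α β := by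
  obtain ⟨h, hh, hA, hB, -⟩ := exists_torus hK α β
  exact ⟨h, hh, hA, hB⟩

theorem exists_wt_of_mem {h : ↥(chevF4.group K)} (hh : h ∈ (TD hK).H0) : ∃ α β, Wt hK h α β := by
  obtain ⟨α, β, hA, hB, -⟩ := torus_spec hK hh
  exact ⟨α, β, hh, hA, hB⟩

variable {hK}

theorem Wt.ext {h h' : ↥(chevF4.group K)} {α β : Kˣ} (w : Wt hK h α β) (w' : Wt hK h' α β) : h = h' := by
  refine (inv_mul_eq_one.1 (H0_faith hK _ (mul_mem (inv_mem w'.1) w.1) fun j x hx => ?_)).symm
  refine X_cases hK (P := fun x => h'⁻¹ * h * x * (h'⁻¹ * h)⁻¹ = x) (fun t => ?_) (fun t u => ?_) j x hx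
  · calc _ = h'⁻¹ * (h * pairU K m t * h⁻¹) * h' := by group
      _ = h'⁻¹ * (h' * pairU K m t * h'⁻¹) * h' := by rw [w.2.1, w'.2.1]
      _ = _ := by group
  · calc _ = h'⁻¹ * (h * b2U K m t u * h⁻¹) * h' := by group
      _ = h'⁻¹ * (h' * b2U K m t u * h'⁻¹) * h' := by rw [w.2.2, w'.2.2]
      _ = _ := by group

theorem Wt.eq_one {h : ↥(chevF4.group K)} (w : Wt hK h 1 1) : h = 1 :=
  w.ext ⟨one_mem _, fun t => by simp, fun t u => by simp⟩

theorem Wt.mul {h h' : ↥(chevF4.group K)} {α β α' β' : Kˣ} (w : Wt hK h α β) (w' : Wt hK h' α' β') :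
    Wt hK (h * h') (α * α') (β * β') := by
  refine ⟨mul_mem w.1 w'.1, fun t => ?_, fun t u => ?_⟩
  · calc h * h' * pairU K m t * (h * h')⁻¹ = h * (h' * pairU K m t * h'⁻¹) * h⁻¹ := by group
      _ = _ := by rw [w'.2.1, w.2.1, Units.val_mul, mul_assoc]
  · calc h * h' * b2U K m t u * (h * h')⁻¹ = h * (h' * b2U K m t u * h'⁻¹) * h⁻¹ := by group
      _ = _ := by
        rw [w'.2.2, w.2.2, Units.val_mul, map_mul]
        congr 1 <;> ring

theorem Wt.inv {h : ↥(chevF4.group K)} {α β : Kˣ} (w : Wt hK h α β) : Wt hK h⁻¹ α⁻¹ β⁻¹ := by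
  obtain ⟨g, hg⟩ := exists_wt hK α⁻¹ β⁻¹
  have e := w.mul hg
  rw [mul_inv_cancel, mul_inv_cancel] at e
  rwa [show h⁻¹ = g from inv_eq_of_mul_eq_one_right e.eq_one]

theorem frob_eq_sq (x : K) : iterateFrobenius K 2 (m + 1) x = iterateFrobenius K 2 m x ^ 2 := by
  rw [iterateFrobenius_def, iterateFrobenius_def, pow_succ, pow_mul]

/-- The action of the reflections on the weights. -/
theorem Wt.conj {h : ↥(chevF4.group K)} {α β : Kˣ} (w : Wt hK h α β) :
    Wt hK ((TD hK).nS 0 * h * ((TD hK).nS 0)⁻¹) α⁻¹ (α * β) ∧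
      Wt hK ((TD hK).nS 1 * h * ((TD hK).nS 1)⁻¹) (α * β ^ 2 * phiU K m β) β⁻¹ := by
  obtain ⟨z, hz⟩ := goodF4.mem_diagonal.1 (Subgroup.mem_subgroupOf.1 (Subgroup.mem_inf.1 w.1).1)
  obtain rfl : h = torusE goodF4 z := Subtype.ext hz
  have hzf := (f4Setup K hK).W_fixed _ (Subgroup.mem_inf.1 w.1).2
  have a24 : goodF4.torusVal z 24 = α := Units.ext (by
    have := pairU_injective ((torus_conj_pairU hK hzf 1).symm.trans (w.2.1 1))
    simpa using this)
  have b25 : goodF4.torusVal z 25 = β := Units.ext (by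
    have := (b2U_injective ((torus_conj_b2U hK hzf 1 0).symm.trans (w.2.2 1 0))).1
    simpa using this)
  have p24 : ∀ v, f4Tau K m (torusE goodF4 v) = torusE goodF4 v →
      goodF4.torusVal v 24 = phiU K m (goodF4.torusVal v 33) ∧
      goodF4.torusVal v 25 = phiU K m (goodF4.torusVal v 27) := fun v hv =>
    ⟨Units.ext ((torus_fixed_f4 hK v).1 hv).1, Units.ext ((torus_fixed_f4 hK v).1 hv).2⟩
  obtain ⟨-, -, -, -, -, -, -, -, -, -, -, hw⟩ := f4_simple_facts
  have key : ∀ j : Fin 2, ∃ v : Fin chevF4.rank → Kˣ, (TD hK).nS j * torusE goodF4 z * ((TD hK).nS j)⁻¹ =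
      torusE goodF4 v ∧ torusE goodF4 v ∈ (TD hK).H0 ∧
      goodF4.torusVal v 33 = goodF4.torusVal z ([14, 37].getD j.val 0) ∧
      goodF4.torusVal v 27 = goodF4.torusVal z ([34, 20].getD j.val 0) := by
    intro j
    have hn : (f4N K j : GL chevF4.Idx K) ∈ chevF4.monomialSubgroup K := goodF4.nProd_mem _
    obtain ⟨v, hv⟩ := goodF4.mem_diagonal.1 (goodF4.diagonal_normalized hn (goodF4.mem_diagonal.2 ⟨z, rfl⟩))
    have hval : ∀ r : ℕ, r < chevF4.nroots →
        goodF4.torusVal v r = goodF4.torusVal z (f4Wn j r) := fun r hr => by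
      have h1 := torusVal_conj goodF4 hn hv (f4WJ j ⟨r, hr⟩)
      rw [f4N_perm, f4_facts.invol] at h1
      exact h1
    have e : (TD hK).nS j * torusE goodF4 z * ((TD hK).nS j)⁻¹ = torusE goodF4 v := Subtype.ext hv
    exact ⟨v, e, e ▸ (TD hK).H0_conj j _ w.1, (hval 33 (by decide +kernel)).trans (by rw [(hw j).1]),
      (hval 27 (by decide +kernel)).trans (by rw [(hw j).2])⟩
  have build : ∀ v α' β', torusE goodF4 v ∈ (TD hK).H0 → goodF4.torusVal v 24 = α' → goodF4.torusVal v 25 = β' →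
      Wt hK (torusE goodF4 v) α' β' := by
    rintro v α' β' hv rfl rfl
    have hvf := (f4Setup K hK).W_fixed _ (Subgroup.mem_inf.1 hv).2
    refine ⟨hv, fun t => torus_conj_pairU hK hvf t, fun t u => ?_⟩
    rw [torus_conj_b2U hK hvf]
    congr 2
    rw [f4_val_sum.2.1, Units.val_mul, ((torus_fixed_f4 hK v).1 hvf).2, (f4_frob hK _).2]
  constructor
  · obtain ⟨v, e, hv, h33, h27⟩ := key 0
    rw [e]
    have hvf := (f4Setup K hK).W_fixed _ (Subgroup.mem_inf.1 hv).2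
    rw [show ([14, 37] : List ℕ).getD (0 : Fin 2).val 0 = 14 from rfl, f4_val_neg.1] at h33
    rw [show ([34, 20] : List ℕ).getD (0 : Fin 2).val 0 = 34 from rfl, f4_val_sum.1] at h27
    refine build v _ _ hv ?_ ?_
    · rw [(p24 v hvf).1, h33, map_inv, ← (p24 z hzf).1, a24]
    · rw [(p24 v hvf).2, h27, map_mul, ← (p24 z hzf).1, ← (p24 z hzf).2, a24, b25]
  · obtain ⟨v, e, hv, h33, h27⟩ := key 1
    rw [e]
    have hvf := (f4Setup K hK).W_fixed _ (Subgroup.mem_inf.1 hv).2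
    rw [show ([14, 37] : List ℕ).getD (1 : Fin 2).val 0 = 37 from rfl, f4_val_sum.2.2.2, f4_val_sum.2.2.1] at h33
    rw [show ([34, 20] : List ℕ).getD (1 : Fin 2).val 0 = 20 from rfl, f4_val_neg.2] at h27
    refine build v _ _ hv ?_ ?_
    · rw [(p24 v hvf).1, h33, map_mul, map_mul, map_pow, ← (p24 z hzf).1, ← (p24 z hzf).2, a24, b25, mul_assoc]
    · rw [(p24 v hvf).2, h27, map_inv, ← (p24 z hzf).2, b25]

/-! ### Powers of a unit -/

variable (hK) in
include hK in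
theorem phiU_phiU (c : Kˣ) : phiU K m (phiU K m c) = c ^ 2 := by
  refine Units.ext ?_
  show iterateFrobenius K 2 (m + 1) (iterateFrobenius K 2 (m + 1) (c : K)) = _
  rw [Units.val_pow_eq_pow_val, frob_eq_sq (m := m) (c : K), map_pow, (f4_frob hK _).1]

variable (m) in
/-- A unit raised to a power in `ℤ[√2]`. -/
noncomputable def val (c : Kˣ) (x : ℤ × ℤ) : Kˣ := c ^ x.1 * phiU K m c ^ x.2

/-- The norm of an exponent. -/
def normExp (x : ℤ × ℤ) : ℕ := (x.1 * x.1 - 2 * (x.2 * x.2)).natAbs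

theorem eq_one_of_pow_two_pow {c : Kˣ} {k : ℕ} (h : c ^ 2 ^ k = 1) : c = 1 := by
  refine Units.ext ((iterateFrobenius K 2 k).injective ?_)
  rw [iterateFrobenius_def, iterateFrobenius_def, ← Units.val_pow_eq_pow_val, h, Units.val_one, one_pow]

variable (hK) in
include hK in
theorem val_ne_one {c : Kˣ} (hc : c ≠ 1) {x : ℤ × ℤ} {k : ℕ} (hx : normExp x = 2 ^ k) : val m c x ≠ 1 := by
  intro e
  obtain ⟨u, v⟩ := x
  have e' : phiU K m c ^ u * c ^ (2 * v) = 1 := by
    have h := congrArg (phiU K m) e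
    rwa [val, map_mul, map_zpow, map_zpow, phiU_phiU hK, map_one, ← zpow_natCast, ← zpow_mul, Nat.cast_ofNat]
      at h
  have e1 : c ^ u * phiU K m c ^ v = 1 := e
  have h1 : c ^ (u * u) * phiU K m c ^ (v * u) = 1 := by
    have := congrArg (fun y : Kˣ => y ^ u) e1
    rwa [mul_zpow, one_zpow, ← zpow_mul, ← zpow_mul] at this
  have h2 : phiU K m c ^ (v * u) * c ^ (2 * (v * v)) = 1 := by
    have := congrArg (fun y : Kˣ => y ^ v) e'
    simp only [mul_zpow, one_zpow, ← zpow_mul] at this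
    rwa [mul_comm u v, mul_assoc 2 v v] at this
  have h3 : c ^ (u * u - 2 * (v * v)) = 1 := by
    rw [zpow_sub, mul_inv_eq_one]
    rw [mul_comm] at h2
    exact mul_right_cancel (h1.trans h2.symm)
  refine hc (eq_one_of_pow_two_pow (k := k) ?_)
  rw [← hx]
  exact pow_natAbs_eq_one.2 h3

/-- The weight exponents after a reflection. -/
def stepW : Fin 2 → (ℤ × ℤ) × (ℤ × ℤ) → (ℤ × ℤ) × (ℤ × ℤ) := fun j w =>
  if j = 0 then ((-w.1.1, -w.1.2), (w.1.1 + w.2.1, w.1.2 + w.2.2))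
  else ((w.1.1 + 2 * w.2.1 + 2 * w.2.2, w.1.2 + 2 * w.2.2 + w.2.1), (-w.2.1, -w.2.2))

/-- The exponents of the weight on a class. -/
def compW (j : Fin 2) (w : (ℤ × ℤ) × (ℤ × ℤ)) : ℤ × ℤ := if j = 0 then w.1 else w.2

/-- Are the weights along the word units? -/
def okW : List (Fin 2) → (ℤ × ℤ) × (ℤ × ℤ) → Bool
  | [], _ => true
  | j :: L, w => [1, 2, 4, 8, 16, 32, 64, 128, 256, 512, 1024].contains (normExp (compW j w)) && okW L (stepW j w)

theorem Wt.step {h : ↥(chevF4.group K)} {c : Kˣ} {w : (ℤ × ℤ) × (ℤ × ℤ)}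
    (hw : Wt hK h (val m c w.1) (val m c w.2)) (j : Fin 2) :
    Wt hK ((TD hK).nS j * h * ((TD hK).nS j)⁻¹) (val m c (stepW j w).1) (val m c (stepW j w).2) := by
  obtain rfl | rfl : j = 0 ∨ j = 1 := by omega
  · have := hw.conj.1
    simp only [stepW, if_pos, val, zpow_neg, zpow_add] at this ⊢
    convert this using 1
    · rw [mul_inv]
    · rw [mul_mul_mul_comm]
  · have := hw.conj.2
    simp only [stepW, if_neg (show ¬ (1 : Fin 2) = 0 by omega), val, zpow_neg] at this ⊢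
    convert this using 1
    · rw [map_mul, map_zpow, map_zpow, phiU_phiU hK]
      simp only [zpow_add, mul_pow, ← zpow_natCast, ← zpow_mul, Nat.cast_ofNat]
      simp only [mul_zpow, ← zpow_mul, mul_comm w.2.1 2, mul_comm w.2.2 2]
      simp only [mul_assoc, mul_comm, mul_left_comm]
    · rw [mul_inv]

end Cfsg.Agent.H70.F4Mult
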